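import Cfsg.Agent.H264.FKS.CharP2

/-!
# S4785 (TEAM ODDM), `PΩ^±_{2n}(q)`, `n` odd, `q` odd: socles in characteristic `p` (helper144)

Only the Zsigmondy primes of the exponents `2 (n - 1)` and `2 (n - 2)` are available.
-/

set_option autoImplicit false

namespace Cfsg.Agent.H144.Odm

open Cfsg.Agent.OrdDiv Cfsg.Agent.H436 Cfsg.Agent.H915.GN Cfsg.Agent.H264.GN Cfsg.Agent.H264.FKS

variable {p f n c : ℕ} {g : Grp}

/-- the third part of `comp` -/
theorem comp3 {f₁ MT M a xT : ℕ} {X Y : ℕ → Prop} (hp : p.Prime) (hf : 1 ≤ f) (hfM : f₁ * M = f * MT)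
    (hK : KD p f₁ c X Y M a) (h3 : 3 ≤ f * xT) (h6 : ¬ (p = 2 ∧ f * xT = 6))
    (hs : ∀ s, Prim p (f * xT) s → s ∣ c) : ∃ x, X x ∧ xT * M ∣ MT * x := by
  obtain ⟨s, hs'⟩ := exists_prim hp.two_le h3 h6
  obtain ⟨x, hx, k, hk⟩ := hK.exp hs' (hs s hs')
  refine ⟨x, hx, ?_⟩
  refine Nat.dvd_of_mul_dvd_mul_left (show 0 < f by omega) ⟨k, ?_⟩
  calc f * (MT * x) = (f * MT) * x := by ring
    _ = (f₁ * M) * x := by rw [hfM]
    _ = (f₁ * x) * M := by ring
    _ = f * xT * k * M := by rw [hk]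
    _ = f * (xT * M) * k := by ring

/-- the case of the top exponent `2 (n - 1)` -/
theorem charp_core (hp : p.Prime) (hp2 : p ≠ 2) (hf : 1 ≤ f) (hn : 5 ≤ n) (hg : Cond g) (hch : HasChar p g)
    {f₁ : ℕ} (hfl : fld g = p ^ f₁) (hK : KD p f₁ c (Xg g) (Yg g) (Mg g) (ag g))
    (hfM : f₁ * Mg g = f * (2 * (n - 1))) (hpp : f₁ * ag g ≤ f * (n * (n - 1)))
    (hs2 : ∀ s, Prim p (f * (2 * (n - 2))) s → s ∣ c) :
    g = .psl (n - 1) (p ^ (2 * f)) ∨ g = .psp (n - 1) (p ^ f) ∨ g = .oodd (n - 1) (p ^ f) ∨ g = .oplus n (p ^ f) ∨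
      g = .ominus (n - 1) (p ^ f) := by
  have hfn' : 1 * (2 * (n - 2)) ≤ f * (2 * (n - 2)) := Nat.mul_le_mul_right _ hf
  have h2 : ag g * (2 * (n - 1)) ≤ n * (n - 1) * Mg g := by
    have h4 : f * (ag g * (2 * (n - 1))) ≤ f * (n * (n - 1) * Mg g) := by
      calc f * (ag g * (2 * (n - 1))) = (f * (2 * (n - 1))) * ag g := by ring
        _ = (f₁ * Mg g) * ag g := by rw [hfM]
        _ = (f₁ * ag g) * Mg g := by ring
        _ ≤ (f * (n * (n - 1))) * Mg g := Nat.mul_le_mul_right _ hpp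
        _ = f * (n * (n - 1) * Mg g) := by ring
    exact Nat.le_of_mul_le_mul_left h4 (by omega)
  have hA : 2 * ag g ≤ n * Mg g := by
    have h5 : (n - 1) * (2 * ag g) ≤ (n - 1) * (n * Mg g) := by
      calc (n - 1) * (2 * ag g) = ag g * (2 * (n - 1)) := by ring
        _ ≤ n * (n - 1) * Mg g := h2
        _ = (n - 1) * (n * Mg g) := by ring
    exact Nat.le_of_mul_le_mul_left h5 (by omega)
  have hO := caseA (N := n - 1) (ρ := n) (by omega) (by omega) hg hch hA (fun x hx => hK.le hx) (by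
    obtain ⟨x, hx, hx2⟩ := comp3 (xT := 2 * (n - 2)) hp hf hfM hK (by omega) (fun h => hp2 h.1) hs2
    refine ⟨x, hx, ?_⟩
    rw [mul_assoc, mul_assoc] at hx2
    exact Nat.dvd_of_mul_dvd_mul_left (by norm_num) hx2)
  cases g
  case psl m q =>
    obtain rfl : m = n - 1 := hO
    have hq : q = p ^ f₁ := hfl
    have h5 : f₁ * (n - 1) = f * (2 * (n - 1)) := hfM
    have h6 : f₁ = 2 * f := Nat.eq_of_mul_eq_mul_right (show 0 < n - 1 by omega) (by rw [h5]; ring)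
    exact Or.inl (by rw [hq, h6])
  case psp m q =>
    obtain ⟨rfl, -⟩ : m = n - 1 ∧ n - 1 ≤ n := hO
    have hq : q = p ^ f₁ := hfl
    have h5 : f₁ * (2 * (n - 1)) = f * (2 * (n - 1)) := hfM
    exact Or.inr (Or.inl (by rw [hq, Nat.eq_of_mul_eq_mul_right (by omega) h5]))
  case oodd m q =>
    obtain ⟨rfl, -⟩ : m = n - 1 ∧ n - 1 ≤ n := hO
    have hq : q = p ^ f₁ := hfl
    have h5 : f₁ * (2 * (n - 1)) = f * (2 * (n - 1)) := hfM
    exact Or.inr (Or.inr (Or.inl (by rw [hq, Nat.eq_of_mul_eq_mul_right (by omega) h5])))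
  case psu m q =>
    exfalso
    obtain ⟨rfl, h6⟩ : m = 4 ∧ n - 1 = 3 := hO
    omega
  case oplus m q =>
    obtain ⟨h5, -⟩ : m = n - 1 + 1 ∧ n = n - 1 + 1 := hO
    obtain rfl : m = n := by omega
    have hq : q = p ^ f₁ := hfl
    have h5 : f₁ * (2 * (m - 1)) = f * (2 * (m - 1)) := hfM
    exact Or.inr (Or.inr (Or.inr (Or.inl (by rw [hq, Nat.eq_of_mul_eq_mul_right (by omega) h5]))))
  case ominus m q =>
    obtain ⟨rfl, -⟩ : m = n - 1 ∧ n - 1 - 1 ≤ n := hO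
    have hq : q = p ^ f₁ := hfl
    have h5 : f₁ * (2 * (n - 1)) = f * (2 * (n - 1)) := hfM
    exact Or.inr (Or.inr (Or.inr (Or.inr (by rw [hq, Nat.eq_of_mul_eq_mul_right (by omega) h5]))))
  case f4 q =>
    exfalso
    obtain ⟨h5, h6⟩ : n - 1 = 3 ∧ n = 4 := hO
    omega
  case te6 q =>
    exfalso
    obtain ⟨h5, h6⟩ : n - 1 = 3 ∧ n = 4 := hO
    omega
  all_goals exact absurd hO not_false

/-- **`T = PΩ^+_{2n}(q)`.** -/
theorem charp_oplus' (hp : p.Prime) (hp2 : p ≠ 2) (hf : 1 ≤ f) (hn : 5 ≤ n) (hg : Cond g)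
    (hch : HasChar p g) (hc : den g * c = num g) (hdvd : c ∣ num (.oplus n (p ^ f)))
    (hs1 : HS p f (2 * (n - 1)) g c) (hs2 : HS p f (2 * (n - 2)) g c) :
    g = .psl (n - 1) (p ^ (2 * f)) ∨ g = .psp (n - 1) (p ^ f) ∨ g = .oodd (n - 1) (p ^ f) ∨ g = .oplus n (p ^ f) ∨
      g = .ominus (n - 1) (p ^ f) := by
  obtain ⟨f₁, hf₁, hfl, hK, hY⟩ := kd_all hp hg hch hc
  have hT := td_oplus hp hf (by omega) (show c ∣ (p ^ f) ^ (n * (n - 1)) * (((p ^ f) ^ n - 1) * prB (p ^ f) (n - 1))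
    from hdvd)
  have hfn : 1 * (2 * (n - 1)) ≤ f * (2 * (n - 1)) := Nat.mul_le_mul_right _ hf
  have hM2 := two_le_Mg hg hch
  have hb := f1_le hp hf₁ hT hK hY hM2 (by omega)
  obtain ⟨h1, h2, h3, h4⟩ := comp hp hf hf₁ hT hK (by omega) (fun h => hp2 h.1) (fun s hs => hs1.big hp hf hfl hb hs) hY
    (fun h => absurd h hp2)
  exact charp_core hp hp2 hf hn hg hch hfl hK h1 (hT.pp hK.pp)
    (fun s hs => hs2.big hp hf hfl (f1_le' hM2 h1 (by omega)) hs)

/-- `r_n(q)` does not divide the order of `PΩ^-_{2n}(q)`, `n` odd -/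
theorem no_rn (hp : p.Prime) (hp2 : p ≠ 2) (hf : 1 ≤ f) (hn : 5 ≤ n) (hno : n % 2 = 1)
    (h : ∀ s, Prim (p ^ f) n s → s ∣ num (.ominus n (p ^ f))) : False := by
  have hfn : 1 * n ≤ f * n := Nat.mul_le_mul_right _ hf
  obtain ⟨s, hs'⟩ := exists_prim (e := f * n) hp.two_le (by omega) (fun h => hp2 h.1)
  have hs := prim_pow hf hs'
  exact not_dvd_ominus_odd hs hno (by omega) (h s hs)

/-- **`T = PΩ^-_{2n}(q)`, `n` odd.** -/
theorem charp_ominus' (hp : p.Prime) (hp2 : p ≠ 2) (hf : 1 ≤ f) (hn : 5 ≤ n) (hno : n % 2 = 1) (hg : Cond g)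
    (hch : HasChar p g) (hc : den g * c = num g) (hdvd : c ∣ num (.ominus n (p ^ f)))
    (hs1 : HS p f (2 * (n - 1)) g c) (hs2 : HS p f (2 * (n - 2)) g c) :
    g = .psl (n - 1) (p ^ (2 * f)) ∨ g = .psp (n - 1) (p ^ f) ∨ g = .oodd (n - 1) (p ^ f) ∨ g = .ominus n (p ^ f) ∨
      g = .ominus (n - 1) (p ^ f) := by
  obtain ⟨f₁, hf₁, hfl, hK, hY⟩ := kd_all hp hg hch hc
  have hT := td_ominus hp hf (by omega) (show c ∣ (p ^ f) ^ (n * (n - 1)) * (((p ^ f) ^ n + 1) * prB (p ^ f) (n - 1))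
    from hdvd)
  have hfn : 1 * (2 * (n - 1)) ≤ f * (2 * (n - 1)) := Nat.mul_le_mul_right _ hf
  have hfn2 : f * (2 * n) = f * (2 * (n - 1)) + 2 * f := by
    obtain ⟨k, rfl⟩ : ∃ k, n = k + 1 := ⟨n - 1, by omega⟩
    rw [Nat.add_sub_cancel]
    ring
  have hfn3 : 2 * (f * n) = f * (2 * n) := by ring
  have hfn4 : f * 5 ≤ f * n := Nat.mul_le_mul_left _ hn
  have hM2 := two_le_Mg hg hch
  have htop : ∀ _ : 3 ≤ f₁ * Mg g, ∃ i, (1 ≤ i ∧ i ≤ 2 * n ∧ 2 ∣ i) ∧ f₁ * Mg g ∣ f * i := fun h3 => by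
    obtain ⟨t, ht⟩ := exists_prim hp.two_le h3 (fun h => hp2 h.1)
    exact hT.exp ht (hK.has hY h3 ht)
  -- a priori bound
  have hb0 : f₁ * Mg g ≤ f * (2 * n) := by
    rcases Nat.lt_or_ge (f₁ * Mg g) 3 with h3 | h3
    · omega
    · obtain ⟨i, ⟨hi1, hi2, hi3⟩, hi4⟩ := htop h3
      exact (Nat.le_of_dvd (Nat.mul_pos hf (by omega)) hi4).trans (Nat.mul_le_mul_left _ hi2)
  have hb : f₁ ≤ f * (2 * (n - 1)) := by
    have h5 : f₁ * 2 ≤ f₁ * Mg g := Nat.mul_le_mul_left _ hM2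
    omega
  -- the Zsigmondy prime of the exponent `2 (n - 1)`
  have hlow : f * (2 * (n - 1)) ≤ f₁ * Mg g := by
    obtain ⟨s, hs⟩ := exists_prim (e := f * (2 * (n - 1))) hp.two_le (by omega) (fun h => hp2 h.1)
    obtain ⟨x, hx, hx2⟩ := hK.exp hs (hs1.big hp hf hfl hb hs)
    have hx3 := hK.le hx
    exact (Nat.le_of_dvd (Nat.mul_pos hf₁ (by omega)) hx2).trans (Nat.mul_le_mul_left _ hx3.2)
  obtain ⟨i, ⟨hi1, hi2, j, hj⟩, hi4⟩ := htop (by omega)
  have hi5 := Nat.le_of_dvd (Nat.mul_pos hf (by omega)) hi4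
  rcases Nat.lt_or_ge j n with hjn | hjn
  · -- top exponent `2 (n - 1)`
    have h1 : f₁ * Mg g = f * (2 * (n - 1)) := by
      refine le_antisymm (hi5.trans (Nat.mul_le_mul_left _ (by omega))) hlow
    rcases charp_core hp hp2 hf hn hg hch hfl hK h1 (hT.pp hK.pp)
      (fun s hs => hs2.big hp hf hfl (f1_le' hM2 h1 (by omega)) hs) with h | h | h | h | h
    · exact Or.inl h
    · exact Or.inr (Or.inl h)
    · exact Or.inr (Or.inr (Or.inl h))
    · exfalso
      subst h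
      refine no_rn hp hp2 hf hn hno fun s hs => ?_
      have h2 : s ∣ den (.oplus n (p ^ f)) * c := by
        rw [hc]
        exact Dvd.dvd.mul_left ((hs.dvd dvd_rfl).mul_right _) _
      refine ((hs.prime.dvd_mul.1 h2).resolve_left ?_).trans hdvd
      intro h3
      have h4 := Nat.le_of_dvd (by norm_num) (h3.trans (Nat.gcd_dvd_left 4 _))
      have h5 := lt_of_prim hs
      omega
    · exact Or.inr (Or.inr (Or.inr (Or.inr h)))
  · -- top exponent `2 n`
    have hi6 : i = 2 * n := by omega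
    subst hi6
    have h1 : f₁ * Mg g = f * (2 * n) := by
      obtain ⟨k, hk⟩ := hi4
      rcases Nat.lt_or_ge k 2 with h2 | h2
      · interval_cases k
        · rw [mul_zero] at hk
          omega
        · rw [hk, mul_one]
      · exfalso
        have h3 : f₁ * Mg g * 2 ≤ f₁ * Mg g * k := Nat.mul_le_mul_left _ h2
        omega
    obtain ⟨-, h2, h3, -⟩ := comp hp hf hf₁ hT hK (by omega) (fun h => hp2 h.1)
      (fun s hs => hK.has hY (by omega) (by rwa [h1])) hY (fun h => absurd h hp2)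
    have hA : 2 * ag g ≤ (n - 1) * Mg g := by
      have h5 : n * (2 * ag g) ≤ n * ((n - 1) * Mg g) := by
        calc n * (2 * ag g) = ag g * (2 * n) := by ring
          _ ≤ n * (n - 1) * Mg g := h2
          _ = n * ((n - 1) * Mg g) := by ring
      exact Nat.le_of_mul_le_mul_left h5 (by omega)
    have hO := caseA (N := n) (ρ := n - 1) (by omega) (by omega) hg hch hA (fun x hx => hK.le hx) (by
      obtain ⟨x, hx, hx2⟩ := h3 (2 * (n - 1)) (by omega) (fun h => hp2 h.1) fun s hs =>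
        hs1.big hp hf hfl hb hs
      refine ⟨x, hx, ?_⟩
      rw [mul_assoc, mul_assoc] at hx2
      exact Nat.dvd_of_mul_dvd_mul_left (by norm_num) hx2)
    cases g
    case psl m q =>
      exfalso
      obtain rfl : m = n := hO
      have hq : q = p ^ f₁ := hfl
      have h5 : f₁ * m = f * (2 * m) := h1
      have h6 : f₁ = 2 * f := Nat.eq_of_mul_eq_mul_right (show 0 < m by omega) (by rw [h5]; ring)
      refine no_rn hp hp2 hf hn hno fun s hs => ?_
      have hqq : q = (p ^ f) ^ 2 := by rw [hq, h6, mul_comm, pow_mul]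
      have hc' : Nat.gcd m (q - 1) * (q - 1) * c = glN m q := hc
      have h7 : s ∣ Nat.gcd m (q - 1) * (q - 1) * c := by
        rw [hc', glN_eq]
        refine Dvd.dvd.mul_left ?_ _
        refine dvd_trans ?_ (Finset.dvd_prod_of_mem (fun j => q ^ (j + 1) - 1) (Finset.mem_range.2 (show m - 1 < m by omega)))
        show s ∣ q ^ (m - 1 + 1) - 1
        rw [Nat.sub_add_cancel (by omega), hqq, ← pow_mul, hs.dvd_iff]
        exact Dvd.intro_left _ rfl
      have h8 : ¬ s ∣ q - 1 := fun h => by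
        rw [hqq, hs.dvd_iff] at h
        have := Nat.le_of_dvd (by norm_num) h
        omega
      refine ((hs.prime.dvd_mul.1 h7).resolve_left fun h9 => ?_).trans hdvd
      rcases hs.prime.dvd_mul.1 h9 with h10 | h10
      · exact h8 (h10.trans (Nat.gcd_dvd_right _ _))
      · exact h8 h10
    case psp m q =>
      exfalso
      obtain ⟨h5, h6⟩ : m = n ∧ n ≤ n - 1 := hO
      omega
    case oodd m q =>
      exfalso
      obtain ⟨h5, h6⟩ : m = n ∧ n ≤ n - 1 := hO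
      omega
    case psu m q =>
      exfalso
      obtain ⟨h5, h6⟩ : m = 4 ∧ n = 3 := hO
      omega
    case oplus m q =>
      exfalso
      obtain ⟨h5, h6⟩ : m = n + 1 ∧ n - 1 = n + 1 := hO
      omega
    case ominus m q =>
      obtain ⟨rfl, -⟩ : m = n ∧ n - 1 ≤ n - 1 := hO
      have hq : q = p ^ f₁ := hfl
      have h5 : f₁ * (2 * m) = f * (2 * m) := h1
      exact Or.inr (Or.inr (Or.inr (Or.inl (by rw [hq, Nat.eq_of_mul_eq_mul_right (by omega) h5]))))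
    case f4 q =>
      exfalso
      obtain ⟨h5, h6⟩ : n = 3 ∧ n - 1 = 4 := hO
      omega
    case te6 q =>
      exfalso
      obtain ⟨h5, h6⟩ : n = 3 ∧ n - 1 = 4 := hO
      omega
    all_goals exact absurd hO not_false

end Cfsg.Agent.H144.Odm
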