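import Cfsg.Agent.H364.OutLie
import Cfsg.Agent.H264.FKS.Res

/-!
# S4785 (TEAM ODDM), `PΩ^±_{2n}(q)`, `n` odd, `q` odd: the `2`-part (helper144)

The socles `PSL_{n-1}(q²)` and `PΩ^-_{2(n-1)}(q)` are killed by `|Aut S|_2 < |T|_2`.
-/

set_option autoImplicit false

namespace Cfsg.Agent.H144.Odm

open Cfsg Cfsg.Agent.OrdDiv Cfsg.Agent.H436 Cfsg.Agent.H915.GN Cfsg.Agent.H264.GN Cfsg.Agent.H264.FKS

universe u

theorem pow_two_dvd {x : ℕ} (hx : Odd x) : ∀ a : ℕ, 2 ^ (a + 3) ∣ x ^ 2 ^ (a + 1) - 1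
  | 0 => by
    have := Nat.eight_dvd_sq_sub_one_of_odd hx
    simpa using this
  | a + 1 => by
    have ih := pow_two_dvd hx a
    have h1 : x ^ 2 ^ (a + 1 + 1) - 1 = (x ^ 2 ^ (a + 1) + 1) * (x ^ 2 ^ (a + 1) - 1) := by
      have := Nat.sq_sub_sq (x ^ 2 ^ (a + 1)) 1
      rw [one_pow, ← pow_mul, ← pow_succ] at this
      exact this
    have h2 : 2 ∣ x ^ 2 ^ (a + 1) + 1 := by
      have := (hx.pow (n := 2 ^ (a + 1))).add_odd odd_one
      exact even_iff_two_dvd.1 this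
    rw [h1, show a + 1 + 3 = 1 + (a + 3) by ring, pow_add, pow_one]
    exact Nat.mul_dvd_mul h2 ih

theorem sub_one_ne {q k : ℕ} (hq : 2 ≤ q) (hk : k ≠ 0) : q ^ k - 1 ≠ 0 := by
  have : 2 ^ 1 ≤ q ^ k := (Nat.pow_le_pow_left hq 1).trans (Nat.pow_le_pow_right (by omega) (by omega))
  omega

/-- `v_2(q² - 1) ≥ 3 + v_2(f)` for `q = p^f` odd -/
theorem val_sq {p f : ℕ} (hp : p.Prime) (hp2 : p ≠ 2) (hf : f ≠ 0) :
    3 + padicValNat 2 f ≤ padicValNat 2 ((p ^ f) ^ 2 - 1) := by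
  have hpo : Odd p := hp.odd_of_ne_two hp2
  obtain ⟨b, hb⟩ : 2 ^ padicValNat 2 f ∣ f := pow_padicValNat_dvd
  have h1 : (p ^ f) ^ 2 = (p ^ b) ^ 2 ^ (padicValNat 2 f + 1) := by
    rw [← pow_mul, ← pow_mul]
    congr 1
    rw [pow_succ, ← mul_assoc, mul_comm b, ← hb]
  have h2 := pow_two_dvd (hpo.pow (n := b)) (padicValNat 2 f)
  rw [← h1] at h2
  have h3 : (p ^ f) ^ 2 - 1 ≠ 0 :=
    sub_one_ne (hp.two_le.trans (Nat.le_self_pow hf _)) (by norm_num)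
  have h4 := (padicValNat_dvd_iff_le h3).1 h2
  omega

theorem val_odd_pow {q : ℕ} (hq : Odd q) (k : ℕ) : padicValNat 2 (q ^ k) = 0 := by
  rw [padicValNat.eq_zero_iff]
  right; right
  exact fun h => (Nat.not_even_iff_odd.2 (hq.pow (n := k))) (even_iff_two_dvd.2 h)

theorem prB_ne' {q : ℕ} (hq : 2 ≤ q) (m : ℕ) : prB q m ≠ 0 := by
  rw [prB_eq]
  exact Finset.prod_ne_zero_iff.2 fun i _ => sub_one_ne hq (by omega)

/-- `prB q (n - 1)` divides the order of `PΩ^±_{2n}(q)` -/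
theorem prB_dvd {q n c X : ℕ} (hX : X ≠ 0) (h : Nat.gcd 4 X * c = q ^ (n * (n - 1)) * (X * prB q (n - 1))) :
    prB q (n - 1) ∣ c := by
  obtain ⟨Y, hY⟩ := Nat.gcd_dvd_right 4 X
  have hg : 0 < Nat.gcd 4 X := Nat.gcd_pos_of_pos_left _ (by norm_num)
  refine ⟨q ^ (n * (n - 1)) * Y, Nat.eq_of_mul_eq_mul_left hg ?_⟩
  rw [h]
  calc q ^ (n * (n - 1)) * (X * prB q (n - 1))
      = q ^ (n * (n - 1)) * ((Nat.gcd 4 X * Y) * prB q (n - 1)) := by rw [← hY]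
    _ = _ := by ring

theorem prB_dvd_T {q n : ℕ} (hq : 2 ≤ q) (hn : 1 ≤ n) {gT : Grp} {T : Type*} [Group T] (hT : IsNamed gT T)
    (hgT : gT = .oplus n q ∨ gT = .ominus n q) : prB q (n - 1) ∣ Nat.card T := by
  rcases hgT with rfl | rfl
  · exact prB_dvd (sub_one_ne hq (by omega)) hT.eq
  · exact prB_dvd (by omega) hT.eq

theorem aut_psl {S : Type u} [Group S] {p f m : ℕ} (hp : p.Prime) (hf : 1 ≤ f) (hm : 3 ≤ m)
    (hS : IsNamed (.psl m (p ^ f)) S) :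
    Nat.card (MulAut S) = 2 * Nat.gcd m (p ^ f - 1) * f * Nat.card S := by
  have := Fact.mk hp
  obtain ⟨F, _, _, hF, ⟨e⟩⟩ := hS.real
  have h1 := Cfsg.Agent.S0813.result p f hf hF m (by omega) (by omega)
  rw [H364.OutLie.card_pgl (by omega), hF, if_neg (by omega)] at h1
  rw [H364.OutLie.mulaut_congr e, h1, Nat.card_congr e.toEquiv]
  ring

theorem aut_ominus {S : Type u} [Group S] {p f m : ℕ} (hp : p.Prime) (hp2 : p ≠ 2) (hf : 1 ≤ f) (hm : 4 ≤ m)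
    (hme : m % 2 = 0) (hS : IsNamed (.ominus m (p ^ f)) S) : Nat.card (MulAut S) = 4 * f * Nat.card S := by
  have := Fact.mk hp
  obtain ⟨F, _, _, a, b, hF, hab, ⟨e⟩⟩ := hS.real
  have h1 := Cfsg.Agent.S0818.result p f hf hF m hm a b hab
  have h2 : Even (m * (p ^ f - 1) / 2) := by
    have h3 : Odd (p ^ f) := (hp.odd_of_ne_two hp2).pow
    obtain ⟨a, ha⟩ := h3
    obtain ⟨b, hb⟩ : ∃ b, m = 2 * b := ⟨m / 2, by omega⟩
    rw [ha, hb, show 2 * a + 1 - 1 = 2 * a by omega, show 2 * b * (2 * a) = 2 * (2 * (b * a)) by ring,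
      Nat.mul_div_cancel_left _ (by norm_num)]
    exact even_two_mul _
  rw [if_neg hp2, if_pos h2] at h1
  rw [H364.OutLie.mulaut_congr e, h1, Nat.card_congr e.toEquiv]

section

variable {T : Type u} [Group T] [Finite T] {R : Subgroup T}

/-- the comparison -/
theorem val_le (hR2 : ∀ k : ℕ, 2 ^ k ∣ Nat.card T → 2 ^ k ∣ Nat.card R) (S : Subgroup R) [S.Normal]
    (hC : Subgroup.centralizer (S : Set R) = ⊥) {N : ℕ} (hN : N ∣ Nat.card T) :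
    padicValNat 2 N ≤ padicValNat 2 (Nat.card (MulAut S)) := by
  have h1 : 2 ^ padicValNat 2 N ∣ Nat.card (MulAut S) :=
    (hR2 _ (pow_padicValNat_dvd.trans hN)).trans (dvd_aut S hC)
  exact (padicValNat_dvd_iff_le Nat.card_pos.ne').1 h1

variable {p f n : ℕ}

theorem not_psl_two (hp : p.Prime) (hp2 : p ≠ 2) (hf : 1 ≤ f) (hn : 5 ≤ n)
    (hR2 : ∀ k : ℕ, 2 ^ k ∣ Nat.card T → 2 ^ k ∣ Nat.card R) (hT : prB (p ^ f) (n - 1) ∣ Nat.card T)
    (S : Subgroup R) [S.Normal] (hC : Subgroup.centralizer (S : Set R) = ⊥)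
    (hS : IsNamed (.psl (n - 1) (p ^ (2 * f))) S) : False := by
  have hpo : Odd p := hp.odd_of_ne_two hp2
  have hq : 2 ≤ p ^ f := hp.two_le.trans (Nat.le_self_pow (by omega) _)
  have h1 := val_le hR2 S hC hT
  have h2 := aut_psl hp (by omega) (by omega) hS
  have h3 : Nat.gcd (n - 1) (p ^ (2 * f) - 1) * (p ^ (2 * f) - 1) * Nat.card S = glN (n - 1) (p ^ (2 * f)) := hS.eq
  have hQ : p ^ (2 * f) = (p ^ f) ^ 2 := by rw [mul_comm, pow_mul]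
  rw [glN_eq] at h3
  have h4 : (p ^ (2 * f) - 1) * Nat.card (MulAut S) =
      4 * f * ((p ^ (2 * f)) ^ ((n - 1) * (n - 1 - 1) / 2) * prB (p ^ f) (n - 1)) := by
    have h5 : ∏ j ∈ Finset.range (n - 1), ((p ^ (2 * f)) ^ (j + 1) - 1) = prB (p ^ f) (n - 1) := by
      rw [prB_eq]
      refine Finset.prod_congr rfl fun i _ => ?_
      rw [hQ, ← pow_mul]
    rw [h5] at h3
    rw [h2, ← h3]
    ring
  have h6 := congrArg (padicValNat 2) h4
  have hne1 : p ^ (2 * f) - 1 ≠ 0 := by rw [hQ]; exact sub_one_ne hq (by norm_num)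
  have hne2 : Nat.card (MulAut S) ≠ 0 := Nat.card_pos.ne'
  have hne3 := prB_ne' hq (n - 1)
  have hne4 : (p ^ (2 * f)) ^ ((n - 1) * (n - 1 - 1) / 2) ≠ 0 := pow_ne_zero _ (pow_ne_zero _ hp.ne_zero)
  rw [padicValNat.mul hne1 hne2, padicValNat.mul (by omega) (Nat.mul_ne_zero hne4 hne3),
    padicValNat.mul hne4 hne3, padicValNat.mul (by norm_num) (by omega), ← pow_mul, val_odd_pow hpo, hQ] at h6
  have h7 := val_sq hp hp2 (show f ≠ 0 by omega)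
  have h8 : padicValNat 2 4 = 2 := by
    rw [show 4 = 2 ^ 2 by norm_num]
    exact padicValNat.prime_pow 2
  omega

theorem not_ominus_two (hp : p.Prime) (hp2 : p ≠ 2) (hf : 1 ≤ f) (hn : 5 ≤ n) (hno : n % 2 = 1)
    (hR2 : ∀ k : ℕ, 2 ^ k ∣ Nat.card T → 2 ^ k ∣ Nat.card R) (hT : prB (p ^ f) (n - 1) ∣ Nat.card T)
    (S : Subgroup R) [S.Normal] (hC : Subgroup.centralizer (S : Set R) = ⊥)
    (hS : IsNamed (.ominus (n - 1) (p ^ f)) S) : False := by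
  have hpo : Odd p := hp.odd_of_ne_two hp2
  have hq : 2 ≤ p ^ f := hp.two_le.trans (Nat.le_self_pow (by omega) _)
  have h1 := val_le hR2 S hC hT
  have h2 := aut_ominus hp hp2 hf (by omega) (by omega) hS
  have h3 : Nat.gcd 4 ((p ^ f) ^ (n - 1) + 1) * Nat.card S =
    (p ^ f) ^ ((n - 1) * (n - 1 - 1)) * (((p ^ f) ^ (n - 1) + 1) * prB (p ^ f) (n - 1 - 1)) := hS.eq
  -- `q ^ (n - 1) + 1 = 2 mod 4`
  obtain ⟨Y, hY, hYo⟩ : ∃ Y, (p ^ f) ^ (n - 1) + 1 = 2 * Y ∧ Odd Y := by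
    obtain ⟨b, hb⟩ : ∃ b, n - 1 = 2 * b := ⟨(n - 1) / 2, by omega⟩
    obtain ⟨z, hz⟩ := ((hpo.pow (n := f)).pow (n := b))
    refine ⟨2 * (z * z + z) + 1, ?_, odd_two_mul_add_one _⟩
    rw [hb, mul_comm 2 b, pow_mul, hz]
    ring
  have hg : Nat.gcd 4 ((p ^ f) ^ (n - 1) + 1) = 2 := by
    rw [hY, show 4 = 2 * 2 by norm_num, Nat.gcd_mul_left, Nat.Coprime.gcd_eq_one (Nat.coprime_two_left.2 hYo)]
  rw [hg, hY] at h3
  have h4 : Nat.card S = (p ^ f) ^ ((n - 1) * (n - 1 - 1)) * (Y * prB (p ^ f) (n - 1 - 1)) := by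
    refine Nat.eq_of_mul_eq_mul_left (show 0 < 2 by norm_num) ?_
    rw [h3]
    ring
  rw [h4] at h2
  have h6 := congrArg (padicValNat 2) h2
  have hne3 := prB_ne' hq (n - 1 - 1)
  have hne4 : (p ^ f) ^ ((n - 1) * (n - 1 - 1)) ≠ 0 := pow_ne_zero _ (by omega)
  have hY0 : Y ≠ 0 := by rintro rfl; exact absurd hYo (by decide)
  have hvY : padicValNat 2 Y = 0 := by
    have := val_odd_pow hYo 1
    rwa [pow_one] at this
  rw [padicValNat.mul (by omega) (Nat.mul_ne_zero hne4 (Nat.mul_ne_zero hY0 hne3)),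
    padicValNat.mul hne4 (Nat.mul_ne_zero hY0 hne3), padicValNat.mul hY0 hne3,
    padicValNat.mul (by norm_num) (by omega), ← pow_mul, val_odd_pow hpo, hvY] at h6
  -- `prB q (n - 1)`
  have h7 : prB (p ^ f) (n - 1) = prB (p ^ f) (n - 1 - 1) * ((p ^ f) ^ (2 * (n - 1)) - 1) := by
    obtain ⟨k, hk⟩ : ∃ k, n - 1 = k + 1 := ⟨n - 2, by omega⟩
    rw [hk, Nat.add_sub_cancel, prB_eq, prB_eq, Finset.prod_range_succ]
  have hne5 : (p ^ f) ^ (2 * (n - 1)) - 1 ≠ 0 := sub_one_ne hq (by omega)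
  rw [h7, padicValNat.mul hne3 hne5] at h1
  have h8 : padicValNat 2 ((p ^ f) ^ 2 - 1) ≤ padicValNat 2 ((p ^ f) ^ (2 * (n - 1)) - 1) := by
    refine (padicValNat_dvd_iff_le hne5).1 (pow_padicValNat_dvd.trans ?_)
    rw [pow_mul]
    exact Nat.sub_one_dvd_pow_sub_one _ _
  have h9 := val_sq hp hp2 (show f ≠ 0 by omega)
  have h10 : padicValNat 2 4 = 2 := by
    rw [show 4 = 2 ^ 2 by norm_num]
    exact padicValNat.prime_pow 2
  omega

end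

end Cfsg.Agent.H144.Odm
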